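import Cfsg.Agent.H805.EPX.Sieve2
import Cfsg.Agent.H746.EK.Num

/-!
# S5745, CrossK numeric: the order sieve for `E8`, `E7`, tools (helper626)
-/

set_option autoImplicit false

namespace Cfsg.Agent.H626.EK

open Cfsg.Agent.H746.EK

/-! ### LTE at 3, `q = 2 ^ i` -/

instance fact3 : Fact (Nat.Prime 3) := ⟨Nat.prime_three⟩

theorem v3_four (n : ℕ) (hn : n ≠ 0) : padicValNat 3 (4 ^ n - 1) = 1 + padicValNat 3 n := by
  have h := padicValNat.pow_sub_pow (p := 3) (x := 4) (y := 1) (by decide) (by norm_num) (by norm_num)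
    (by norm_num) hn
  rw [one_pow] at h
  rw [h]
  norm_num

theorem v3_term (i d : ℕ) (hi : i ≠ 0) (hd : d ≠ 0) :
    padicValNat 3 ((2 ^ i) ^ (2 * d) - 1) = 1 + padicValNat 3 i + padicValNat 3 d := by
  have e : (2 ^ i) ^ (2 * d) = 4 ^ (i * d) := by
    rw [← pow_mul, show (4 : ℕ) = 2 ^ 2 by norm_num, ← pow_mul]
    congr 1
    ring
  rw [e, v3_four _ (mul_ne_zero hi hd), padicValNat.mul hi hd, add_assoc]

theorem term_ne (q d : ℕ) (hq : 2 ≤ q) (hd : d ≠ 0) : q ^ d - 1 ≠ 0 := by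
  have : 1 < q ^ d := Nat.one_lt_pow hd (by omega)
  omega

theorem v3_two_pow (i n : ℕ) : padicValNat 3 ((2 ^ i) ^ n) = 0 := by
  apply padicValNat.eq_zero_of_not_dvd
  intro h
  have := Nat.prime_three.dvd_of_dvd_pow (Nat.prime_three.dvd_of_dvd_pow h)
  revert this
  decide

theorem p1 : padicValNat 3 1 = 0 := by simp
theorem p4 : padicValNat 3 4 = 0 := padicValNat.eq_zero_of_not_dvd (by decide)
theorem p7 : padicValNat 3 7 = 0 := padicValNat.eq_zero_of_not_dvd (by decide)
theorem p10 : padicValNat 3 10 = 0 := padicValNat.eq_zero_of_not_dvd (by decide)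
theorem p5 : padicValNat 3 5 = 0 := padicValNat.eq_zero_of_not_dvd (by decide)
theorem p2 : padicValNat 3 2 = 0 := padicValNat.eq_zero_of_not_dvd (by decide)
theorem p3 : padicValNat 3 3 = 1 := padicValNat_self
theorem p6 : padicValNat 3 6 = 1 := by
  rw [show (6 : ℕ) = 2 * 3 by norm_num, padicValNat.mul (by norm_num) (by norm_num), p2, p3]
theorem p9 : padicValNat 3 9 = 2 := by
  rw [show (9 : ℕ) = 3 * 3 by norm_num, padicValNat.mul (by norm_num) (by norm_num), p3]
theorem p12 : padicValNat 3 12 = 1 := by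
  rw [show (12 : ℕ) = 4 * 3 by norm_num, padicValNat.mul (by norm_num) (by norm_num), p4, p3]
theorem p15 : padicValNat 3 15 = 1 := by
  rw [show (15 : ℕ) = 5 * 3 by norm_num, padicValNat.mul (by norm_num) (by norm_num), p5, p3]

theorem v3_e8 (i : ℕ) (hi : i ≠ 0) : padicValNat 3 (nm .e8 (2 ^ i)) = 13 + 8 * padicValNat 3 i := by
  have hq : 2 ≤ 2 ^ i := by
    calc 2 = 2 ^ 1 := by norm_num
      _ ≤ 2 ^ i := Nat.pow_le_pow_right (by norm_num) (by omega)
  have t (d : ℕ) (hd : d ≠ 0) := term_ne (2 ^ i) (2 * d) hq (by omega)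
  have h0 : (2 ^ i) ^ 120 ≠ 0 := by positivity
  have a1 := v3_term i 1 hi (by norm_num)
  have a2 := v3_term i 4 hi (by norm_num)
  have a3 := v3_term i 6 hi (by norm_num)
  have a4 := v3_term i 7 hi (by norm_num)
  have a5 := v3_term i 9 hi (by norm_num)
  have a6 := v3_term i 10 hi (by norm_num)
  have a7 := v3_term i 12 hi (by norm_num)
  have a8 := v3_term i 15 hi (by norm_num)
  have b1 := t 1 (by norm_num)
  have b2 := t 4 (by norm_num)
  have b3 := t 6 (by norm_num)
  have b4 := t 7 (by norm_num)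
  have b5 := t 9 (by norm_num)
  have b6 := t 10 (by norm_num)
  have b7 := t 12 (by norm_num)
  have b8 := t 15 (by norm_num)
  norm_num only at a1 a2 a3 a4 a5 a6 a7 a8 b1 b2 b3 b4 b5 b6 b7 b8
  simp only [nm]
  rw [padicValNat.mul (by simp only [ne_eq, mul_eq_zero, not_or]; tauto) b8,
    padicValNat.mul (by simp only [ne_eq, mul_eq_zero, not_or]; tauto) b7,
    padicValNat.mul (by simp only [ne_eq, mul_eq_zero, not_or]; tauto) b6,
    padicValNat.mul (by simp only [ne_eq, mul_eq_zero, not_or]; tauto) b5,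
    padicValNat.mul (by simp only [ne_eq, mul_eq_zero, not_or]; tauto) b4,
    padicValNat.mul (by simp only [ne_eq, mul_eq_zero, not_or]; tauto) b3,
    padicValNat.mul (by simp only [ne_eq, mul_eq_zero, not_or]; tauto) b2,
    padicValNat.mul h0 b1, v3_two_pow, a1, a2, a3, a4, a5, a6, a7, a8, p1, p4, p6, p7, p9, p10, p12, p15]
  ring

theorem v3_e7 (i : ℕ) (hi : i ≠ 0) : padicValNat 3 (nm .e7 (2 ^ i)) = 11 + 7 * padicValNat 3 i := by
  have hq : 2 ≤ 2 ^ i := by
    calc 2 = 2 ^ 1 := by norm_num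
      _ ≤ 2 ^ i := Nat.pow_le_pow_right (by norm_num) (by omega)
  have t (d : ℕ) (hd : d ≠ 0) := term_ne (2 ^ i) (2 * d) hq (by omega)
  have h0 : (2 ^ i) ^ 63 ≠ 0 := by positivity
  have a1 := v3_term i 1 hi (by norm_num)
  have a2 := v3_term i 3 hi (by norm_num)
  have a3 := v3_term i 4 hi (by norm_num)
  have a4 := v3_term i 5 hi (by norm_num)
  have a5 := v3_term i 6 hi (by norm_num)
  have a6 := v3_term i 7 hi (by norm_num)
  have a7 := v3_term i 9 hi (by norm_num)
  have b1 := t 1 (by norm_num)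
  have b2 := t 3 (by norm_num)
  have b3 := t 4 (by norm_num)
  have b4 := t 5 (by norm_num)
  have b5 := t 6 (by norm_num)
  have b6 := t 7 (by norm_num)
  have b7 := t 9 (by norm_num)
  norm_num only at a1 a2 a3 a4 a5 a6 a7 b1 b2 b3 b4 b5 b6 b7
  simp only [nm]
  rw [padicValNat.mul (by simp only [ne_eq, mul_eq_zero, not_or]; tauto) b7,
    padicValNat.mul (by simp only [ne_eq, mul_eq_zero, not_or]; tauto) b6,
    padicValNat.mul (by simp only [ne_eq, mul_eq_zero, not_or]; tauto) b5,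
    padicValNat.mul (by simp only [ne_eq, mul_eq_zero, not_or]; tauto) b4,
    padicValNat.mul (by simp only [ne_eq, mul_eq_zero, not_or]; tauto) b3,
    padicValNat.mul (by simp only [ne_eq, mul_eq_zero, not_or]; tauto) b2,
    padicValNat.mul h0 b1, v3_two_pow, a1, a2, a3, a4, a5, a6, a7, p1, p3, p4, p5, p6, p7, p9]
  ring

/-! ### LTE at 2, `q` odd -/

theorem v2_term (q d : ℕ) (hq : Odd q) (h1 : 1 < q) (hd : d ≠ 0) :
    padicValNat 2 (q ^ (2 * d) - 1) = padicValNat 2 (q ^ 2 - 1) + padicValNat 2 d := by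
  have hn : ¬ 2 ∣ q := by rwa [← even_iff_two_dvd, Nat.not_even_iff_odd]
  have h2 : 2 ∣ q - 1 := by
    obtain ⟨m, rfl⟩ := hq
    exact ⟨m, by omega⟩
  have a := padicValNat.pow_two_sub_pow (x := q) (y := 1) h1 h2 hn (n := 2 * d) (by omega) (even_two_mul d)
  have b := padicValNat.pow_two_sub_pow (x := q) (y := 1) h1 h2 hn (n := 2) (by omega) even_two
  rw [one_pow] at a b
  rw [padicValNat.mul (by norm_num) hd] at a
  omega

theorem v2_odd_pow (q n : ℕ) (hq : Odd q) : padicValNat 2 (q ^ n) = 0 := by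
  apply padicValNat.eq_zero_of_not_dvd
  rw [← even_iff_two_dvd, Nat.not_even_iff_odd]
  exact hq.pow

theorem r1 : padicValNat 2 1 = 0 := by simp
theorem r2 : padicValNat 2 2 = 1 := padicValNat_self
theorem r3 : padicValNat 2 3 = 0 := padicValNat.eq_zero_of_not_dvd (by decide)
theorem r5 : padicValNat 2 5 = 0 := padicValNat.eq_zero_of_not_dvd (by decide)
theorem r7 : padicValNat 2 7 = 0 := padicValNat.eq_zero_of_not_dvd (by decide)
theorem r9 : padicValNat 2 9 = 0 := padicValNat.eq_zero_of_not_dvd (by decide)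
theorem r15 : padicValNat 2 15 = 0 := padicValNat.eq_zero_of_not_dvd (by decide)
theorem r4 : padicValNat 2 4 = 2 := by
  rw [show (4 : ℕ) = 2 * 2 by norm_num, padicValNat.mul (by norm_num) (by norm_num), r2]
theorem r6 : padicValNat 2 6 = 1 := by
  rw [show (6 : ℕ) = 2 * 3 by norm_num, padicValNat.mul (by norm_num) (by norm_num), r2, r3]
theorem r10 : padicValNat 2 10 = 1 := by
  rw [show (10 : ℕ) = 2 * 5 by norm_num, padicValNat.mul (by norm_num) (by norm_num), r2, r5]
theorem r12 : padicValNat 2 12 = 2 := by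
  rw [show (12 : ℕ) = 4 * 3 by norm_num, padicValNat.mul (by norm_num) (by norm_num), r4, r3]

theorem v2_e8 (q : ℕ) (hq : Odd q) (h1 : 1 < q) :
    padicValNat 2 (nm .e8 q) = 8 * padicValNat 2 (q ^ 2 - 1) + 6 := by
  have t (d : ℕ) (hd : d ≠ 0) := term_ne q (2 * d) h1 (by omega)
  have h0 : q ^ 120 ≠ 0 := by positivity
  have a1 := v2_term q 1 hq h1 (by norm_num)
  have a2 := v2_term q 4 hq h1 (by norm_num)
  have a3 := v2_term q 6 hq h1 (by norm_num)
  have a4 := v2_term q 7 hq h1 (by norm_num)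
  have a5 := v2_term q 9 hq h1 (by norm_num)
  have a6 := v2_term q 10 hq h1 (by norm_num)
  have a7 := v2_term q 12 hq h1 (by norm_num)
  have a8 := v2_term q 15 hq h1 (by norm_num)
  have b1 := t 1 (by norm_num)
  have b2 := t 4 (by norm_num)
  have b3 := t 6 (by norm_num)
  have b4 := t 7 (by norm_num)
  have b5 := t 9 (by norm_num)
  have b6 := t 10 (by norm_num)
  have b7 := t 12 (by norm_num)
  have b8 := t 15 (by norm_num)
  norm_num only at a2 a3 a4 a5 a6 a7 a8 b1 b2 b3 b4 b5 b6 b7 b8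
  simp only [nm]
  rw [padicValNat.mul (by simp only [ne_eq, mul_eq_zero, not_or]; tauto) b8,
    padicValNat.mul (by simp only [ne_eq, mul_eq_zero, not_or]; tauto) b7,
    padicValNat.mul (by simp only [ne_eq, mul_eq_zero, not_or]; tauto) b6,
    padicValNat.mul (by simp only [ne_eq, mul_eq_zero, not_or]; tauto) b5,
    padicValNat.mul (by simp only [ne_eq, mul_eq_zero, not_or]; tauto) b4,
    padicValNat.mul (by simp only [ne_eq, mul_eq_zero, not_or]; tauto) b3,
    padicValNat.mul (by simp only [ne_eq, mul_eq_zero, not_or]; tauto) b2,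
    padicValNat.mul h0 b1, v2_odd_pow _ _ hq, a2, a3, a4, a5, a6, a7, a8, r4, r6, r7, r9, r10, r12, r15]
  ring

theorem v2_e7 (q : ℕ) (hq : Odd q) (h1 : 1 < q) :
    padicValNat 2 (nm .e7 q) = 7 * padicValNat 2 (q ^ 2 - 1) + 3 := by
  have t (d : ℕ) (hd : d ≠ 0) := term_ne q (2 * d) h1 (by omega)
  have h0 : q ^ 63 ≠ 0 := by positivity
  have a2 := v2_term q 3 hq h1 (by norm_num)
  have a3 := v2_term q 4 hq h1 (by norm_num)
  have a4 := v2_term q 5 hq h1 (by norm_num)
  have a5 := v2_term q 6 hq h1 (by norm_num)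
  have a6 := v2_term q 7 hq h1 (by norm_num)
  have a7 := v2_term q 9 hq h1 (by norm_num)
  have b1 := t 1 (by norm_num)
  have b2 := t 3 (by norm_num)
  have b3 := t 4 (by norm_num)
  have b4 := t 5 (by norm_num)
  have b5 := t 6 (by norm_num)
  have b6 := t 7 (by norm_num)
  have b7 := t 9 (by norm_num)
  norm_num only at a2 a3 a4 a5 a6 a7 b1 b2 b3 b4 b5 b6 b7
  simp only [nm]
  rw [padicValNat.mul (by simp only [ne_eq, mul_eq_zero, not_or]; tauto) b7,
    padicValNat.mul (by simp only [ne_eq, mul_eq_zero, not_or]; tauto) b6,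
    padicValNat.mul (by simp only [ne_eq, mul_eq_zero, not_or]; tauto) b5,
    padicValNat.mul (by simp only [ne_eq, mul_eq_zero, not_or]; tauto) b4,
    padicValNat.mul (by simp only [ne_eq, mul_eq_zero, not_or]; tauto) b3,
    padicValNat.mul (by simp only [ne_eq, mul_eq_zero, not_or]; tauto) b2,
    padicValNat.mul h0 b1, v2_odd_pow _ _ hq, a2, a3, a4, a5, a6, a7, r3, r4, r5, r6, r7, r9]
  ring

end Cfsg.Agent.H626.EK
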