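import Cfsg.Agent.H626.EK.Data

/-!
# S5745, CrossK numeric: sporadic `T`, family e8 (helper626)
-/

set_option autoImplicit false
set_option maxHeartbeats 4000000
set_option maxRecDepth 100000

namespace Cfsg.Agent.H626.EK

open Cfsg.Agent.H746.EK
open Cfsg.Agent.H805.EPX (allb allb_iff)

theorem c8_m11 : allb (fun k => ck8 7920 1180782 4 2 (k + 2)) 123 = true := by decide +kernel

theorem c8_m12 : allb (fun k => ck8 95040 263096654 6 3 (k + 2)) 123 = true := by decide +kernel

theorem c8_m22 : allb (fun k => ck8 443520 12284320528 7 2 (k + 2)) 123 = true := by decide +kernel

theorem c8_m23 : allb (fun k => ck8 10200960 85078705608595 7 2 (k + 2)) 123 = true := by decide +kernel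

theorem c8_m24 : allb (fun k => ck8 244823040 1161839824146208863 10 3 (k + 2)) 123 = true := by decide +kernel

theorem c8_j1 : allb (fun k => ck8 175560 938864925 3 1 (k + 2)) 123 = true := by decide +kernel

theorem c8_j2 : allb (fun k => ck8 604800 26403575918 7 3 (k + 2)) 123 = true := by decide +kernel

theorem c8_j3 : allb (fun k => ck8 50232960 9988599647273403 7 5 (k + 2)) 123 = true := by decide +kernel

theorem c8_j4 : allb (fun k => ck8 86775571046077562880 215585949250351294934087316365388129884754236960212054 21 3 (k + 2)) 123 = true := by decide +kernel

theorem c8_co1 : allb (fun k => ck8 4157776806543360000 7878565136423900831601518050555680368277884819698983 21 9 (k + 2)) 123 = true := by decide +kernel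

theorem c8_co2 : allb (fun k => ck8 42305421312000 125101331768759548739076491815915034033 18 6 (k + 2)) 123 = true := by decide +kernel

theorem c8_co3 : allb (fun k => ck8 495766656000 9561507406172574992750562711 10 7 (k + 2)) 123 = true := by decide +kernel

theorem c8_fi22 : allb (fun k => ck8 64561751654400 463676411830021209497232836771062454 17 9 (k + 2)) 123 = true := by decide +kernel

theorem c8_fi23 : allb (fun k => ck8 4089470473293004800 5366565648343429615999125079156242694570695954223 18 13 (k + 2)) 123 = true := by decide +kernel

theorem c8_fi24 : allb (fun k => ck8 1255205709190661721292800 155181148462093177482650633419451624195053172583263283514355087186 21 16 (k + 2)) 123 = true := by decide +kernel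

theorem c8_hs : allb (fun k => ck8 44352000 6939969038255186 9 2 (k + 2)) 123 = true := by decide +kernel

theorem c8_mcl : allb (fun k => ck8 898128000 56860639375088534644 7 6 (k + 2)) 123 = true := by decide +kernel

theorem c8_he : allb (fun k => ck8 4030387200 5137720598400073648596 10 3 (k + 2)) 123 = true := by decide +kernel

theorem c8_ru : allb (fun k => ck8 145926144000 342912297682013117884884610 14 3 (k + 2)) 123 = true := by decide +kernel

theorem c8_suz : allb (fun k => ck8 448345497600 7074653979509130896882271457 13 7 (k + 2)) 123 = true := by decide +kernel

theorem c8_on : allb (fun k => ck8 460815505920 7678487647574025293413381306 9 4 (k + 2)) 123 = true := by decide +kernel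

theorem c8_hn : allb (fun k => ck8 273030912000000 1597091312167063101990708086191728813 14 6 (k + 2)) 123 = true := by decide +kernel

theorem c8_ly : allb (fun k => ck8 51765179004000000 10884472780383034928308828156706245361593220 8 7 (k + 2)) 123 = true := by decide +kernel

theorem c8_th : allb (fun k => ck8 90745943887872000 58637561862924700520829963564321565756572203 15 10 (k + 2)) 123 = true := by decide +kernel

theorem c8_b : allb (fun k => ck8 4154781481226426191177580544000000 16437443347659448028862791724125782397999448537901061120469053380139232491637344324800768764744173499171182762902159875902529566110906174171319444143199388203389 41 13 (k + 2)) 123 = true := by decide +kernel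

theorem c8_m : allb (fun k => ck8 808017424794512875886459904961710757005754368000000000 1744699142847717977959513641796679181329088764586081663414614774730996748629349704627005917895027595677714643402348136734708140095461921260228914718252286018459653028743452252191343070039240443280737959936000000000 46 20 (k + 2)) 123 = true := by decide +kernel

end Cfsg.Agent.H626.EK
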