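import Cfsg.Agent.H626.EK.Walk

/-!
# S5745, CrossK numeric: sporadic orders and the numbers `Lc` (helper626)
-/

set_option autoImplicit false
set_option maxHeartbeats 4000000
set_option maxRecDepth 100000

namespace Cfsg.Agent.H626.EK

open Cfsg.Agent.H746.EK
open Cfsg.Agent.H805.EPX (allb allb_iff)

/-- the orders of the sporadic groups -/
def sporO : List ℕ :=
  [7920,
    95040,
    443520,
    10200960,
    244823040,
    175560,
    604800,
    50232960,
    86775571046077562880,
    4157776806543360000,
    42305421312000,
    495766656000,
    64561751654400,
    4089470473293004800,
    1255205709190661721292800,
    44352000,
    898128000,
    4030387200,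
    145926144000,
    448345497600,
    460815505920,
    273030912000000,
    51765179004000000,
    90745943887872000,
    4154781481226426191177580544000000,
    808017424794512875886459904961710757005754368000000000]

theorem L_m11 : Lc 7920 = 1180782 := by decide +kernel

theorem L_m12 : Lc 95040 = 263096654 := by decide +kernel

theorem L_m22 : Lc 443520 = 12284320528 := by decide +kernel

theorem L_m23 : Lc 10200960 = 85078705608595 := by decide +kernel

theorem L_m24 : Lc 244823040 = 1161839824146208863 := by decide +kernel

theorem L_j1 : Lc 175560 = 938864925 := by decide +kernel

theorem L_j2 : Lc 604800 = 26403575918 := by decide +kernel

theorem L_j3 : Lc 50232960 = 9988599647273403 := by decide +kernel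

theorem L_j4 : Lc 86775571046077562880 = 215585949250351294934087316365388129884754236960212054 := by decide +kernel

theorem L_co1 : Lc 4157776806543360000 = 7878565136423900831601518050555680368277884819698983 := by decide +kernel

theorem L_co2 : Lc 42305421312000 = 125101331768759548739076491815915034033 := by decide +kernel

theorem L_co3 : Lc 495766656000 = 9561507406172574992750562711 := by decide +kernel

theorem L_fi22 : Lc 64561751654400 = 463676411830021209497232836771062454 := by decide +kernel

theorem L_fi23 : Lc 4089470473293004800 = 5366565648343429615999125079156242694570695954223 := by decide +kernel

theorem L_fi24 : Lc 1255205709190661721292800 = 155181148462093177482650633419451624195053172583263283514355087186 := by decide +kernel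

theorem L_hs : Lc 44352000 = 6939969038255186 := by decide +kernel

theorem L_mcl : Lc 898128000 = 56860639375088534644 := by decide +kernel

theorem L_he : Lc 4030387200 = 5137720598400073648596 := by decide +kernel

theorem L_ru : Lc 145926144000 = 342912297682013117884884610 := by decide +kernel

theorem L_suz : Lc 448345497600 = 7074653979509130896882271457 := by decide +kernel

theorem L_on : Lc 460815505920 = 7678487647574025293413381306 := by decide +kernel

theorem L_hn : Lc 273030912000000 = 1597091312167063101990708086191728813 := by decide +kernel

theorem L_ly : Lc 51765179004000000 = 10884472780383034928308828156706245361593220 := by decide +kernel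

theorem L_th : Lc 90745943887872000 = 58637561862924700520829963564321565756572203 := by decide +kernel

theorem L_b : Lc 4154781481226426191177580544000000 = 16437443347659448028862791724125782397999448537901061120469053380139232491637344324800768764744173499171182762902159875902529566110906174171319444143199388203389 := by decide +kernel

theorem L_m : Lc 808017424794512875886459904961710757005754368000000000 = 1744699142847717977959513641796679181329088764586081663414614774730996748629349704627005917895027595677714643402348136734708140095461921260228914718252286018459653028743452252191343070039240443280737959936000000000 := by decide +kernel

end Cfsg.Agent.H626.EK
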