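import Cfsg.Agent.H626.EK.Base

/-!
# S5745, CrossK numeric: the walk for `E8`, `E7` (helper626)
-/

set_option autoImplicit false

namespace Cfsg.Agent.H626.EK

open Cfsg.Agent.H746.EK

/-- `j = 1, 2, ...` until `big j` -/
def walk (big ok : ℕ → Bool) (N : ℕ) : ℕ → Bool
  | 0 => false
  | n + 1 => big (N - n) || (ok (N - n) && walk big ok N n)

theorem walk_spec {big ok : ℕ → Bool} (hm : ∀ a b, a ≤ b → big a = true → big b = true) {N n : ℕ} (hn : n ≤ N)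
    (h : walk big ok N n = true) {j : ℕ} (hj : N - n < j) : big j = true ∨ ok j = true := by
  induction n with
  | zero => exact absurd h (by simp [walk])
  | succ n ih =>
    rw [walk, Bool.or_eq_true, Bool.and_eq_true] at h
    rcases h with h | ⟨h1, h2⟩
    · exact Or.inl (hm _ _ (by omega) h)
    · rcases (by omega : j = N - n ∨ N - n < j) with rfl | h3
      · exact Or.inr h1
      · exact ih (by omega) h2 h3

/-- the bound, with `L = Lc t` -/
def bk (L t k : ℕ) : ℕ :=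
  (1 + (L ^ k + Ik t (2 * t) k) * (2 * Dk t k)) * ((2 * t) ^ k * k.factorial)

theorem bk_eq (t k : ℕ) : Bk t (2 * t) k = bk (Lc t) t k := rfl

theorem lt_of_bound {f : Fam} {B Q : ℕ} (hm : 3 * B < nm f Q) {q C : ℕ} (hC : dn f q * C = nm f q) (hB : C ≤ B) :
    q < Q := by
  by_contra hcon
  push Not at hcon
  have h1 := nm_mono f hcon
  have h2 : dn f q * C ≤ 3 * B := Nat.mul_le_mul (dn_le f q) hB
  omega

/-- `q` is excluded -/
def ok1 (f : Fam) (n B q : ℕ) : Bool :=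
  !(Nat.beq (nm f q % (dn f q * n)) 0) || Nat.blt (dn f q * B) (nm f q)

theorem ok1_false {f : Fam} {n B q : ℕ} (h : ok1 f n B q = true) {C : ℕ} (hC : dn f q * C = nm f q) (hn : n ∣ C)
    (hB : C ≤ B) : False := by
  unfold ok1 at h
  rw [Bool.or_eq_true] at h
  rcases h with h | h
  · have h1 : nm f q % (dn f q * n) = 0 := by
      rw [← hC]
      exact Nat.mod_eq_zero_of_dvd (Nat.mul_dvd_mul_left _ hn)
    rw [h1] at h
    exact absurd h (by decide)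
  · have h1 : dn f q * B < nm f q := by
      unfold Nat.blt at h
      exact Nat.le_of_ble_eq_true h
    have h2 : dn f q * C ≤ dn f q * B := Nat.mul_le_mul_left _ hB
    omega

/-- `3 B < nm f q` -/
def big1 (f : Fam) (B q : ℕ) : Bool := Nat.blt (3 * B) (nm f q)

theorem big1_mono {f : Fam} {B a b : ℕ} (hab : a ≤ b) (h : big1 f B a = true) : big1 f B b = true := by
  unfold big1 Nat.blt at *
  have h1 := Nat.le_of_ble_eq_true h
  exact Nat.ble_eq_true_of_le (h1.trans (nm_mono f hab))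

theorem big1_false {f : Fam} {B q : ℕ} (h : big1 f B q = true) {C : ℕ} (hC : dn f q * C = nm f q) (hB : C ≤ B) :
    False := by
  unfold big1 Nat.blt at h
  have h1 : 3 * B < nm f q := Nat.le_of_ble_eq_true h
  exact absurd (lt_of_bound h1 hC hB) (lt_irrefl _)

/-- even part: `q = 2 ^ (3 ^ w * j)` -/
def ev (f : Fam) (n B w N : ℕ) : Bool :=
  walk (fun j => big1 f B (2 ^ (3 ^ w * j))) (fun j => ok1 f n B (2 ^ (3 ^ w * j))) N N

theorem ev_false {f : Fam} {n B w N : ℕ} (h : ev f n B w N = true) {i : ℕ} (hi : i ≠ 0) (hw : 3 ^ w ∣ i) {C : ℕ}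
    (hC : dn f (2 ^ i) * C = nm f (2 ^ i)) (hn : n ∣ C) (hB : C ≤ B) : False := by
  obtain ⟨j, rfl⟩ := hw
  have hj : 0 < j := by
    rcases Nat.eq_zero_or_pos j with rfl | h
    · simp at hi
    · exact h
  have hm : ∀ a b, a ≤ b → big1 f B (2 ^ (3 ^ w * a)) = true → big1 f B (2 ^ (3 ^ w * b)) = true :=
    fun a b hab h2 => big1_mono (Nat.pow_le_pow_right (by norm_num) (Nat.mul_le_mul_left _ hab)) h2
  rcases walk_spec (j := j) hm le_rfl h (by omega) with h1 | h1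
  · exact big1_false h1 hC hB
  · exact ok1_false h1 hC hn hB

/-- odd part: `q = 2 ^ v * j ± 1` -/
def od (f : Fam) (n B v N : ℕ) : Bool :=
  walk (fun j => big1 f B (2 ^ v * j - 1))
    (fun j => ok1 f n B (2 ^ v * j - 1) && ok1 f n B (2 ^ v * j + 1)) N N

theorem od_false {f : Fam} {n B v N : ℕ} (h : od f n B v N = true) {q j : ℕ} (hq : 2 ≤ q)
    (hj : q = 2 ^ v * j + 1 ∨ q + 1 = 2 ^ v * j) {C : ℕ} (hC : dn f q * C = nm f q) (hn : n ∣ C) (hB : C ≤ B) :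
    False := by
  have hj0 : 0 < j := by
    rcases Nat.eq_zero_or_pos j with rfl | h
    · omega
    · exact h
  have hm : ∀ a b, a ≤ b → big1 f B (2 ^ v * a - 1) = true → big1 f B (2 ^ v * b - 1) = true :=
    fun a b hab h2 => big1_mono (Nat.sub_le_sub_right (Nat.mul_le_mul_left _ hab) 1) h2
  rcases walk_spec (j := j) hm le_rfl h (by omega) with h1 | h1
  · exact big1_false (big1_mono (by omega) h1) hC hB
  · rw [Bool.and_eq_true] at h1
    rcases hj with hj | hj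
    · rw [hj] at hC
      exact ok1_false h1.2 hC hn hB
    · have e : q = 2 ^ v * j - 1 := by omega
      rw [e] at hC
      exact ok1_false h1.1 hC hn hB

theorem even_or {q : ℕ} (hq : IsPrimePow q) : (∃ i, i ≠ 0 ∧ q = 2 ^ i) ∨ Odd q := by
  rcases Nat.even_or_odd q with he | ho
  · left
    obtain ⟨r, i, hr, hi, rfl⟩ := hq
    have h2 := Nat.prime_two.dvd_of_dvd_pow (even_iff_two_dvd.1 he)
    rw [Nat.prime_dvd_prime_iff_eq Nat.prime_two hr.nat_prime] at h2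
    subst h2
    exact ⟨i, hi.ne', rfl⟩
  · exact Or.inr ho

theorem nm_ne {f : Fam} {q : ℕ} (hf : f = .e8 ∨ f = .e7) (hq : 2 ≤ q) : nm f q ≠ 0 := by
  have t (d : ℕ) (hd : d ≠ 0) := term_ne q d hq hd
  have h0 (n : ℕ) : q ^ n ≠ 0 := by positivity
  rcases hf with rfl | rfl <;> simp only [nm]
  · exact mul_ne_zero (mul_ne_zero (mul_ne_zero (mul_ne_zero (mul_ne_zero (mul_ne_zero (mul_ne_zero (mul_ne_zero
      (h0 _) (t _ (by norm_num))) (t _ (by norm_num))) (t _ (by norm_num))) (t _ (by norm_num))) (t _ (by norm_num)))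
      (t _ (by norm_num))) (t _ (by norm_num))) (t _ (by norm_num))
  · exact mul_ne_zero (mul_ne_zero (mul_ne_zero (mul_ne_zero (mul_ne_zero (mul_ne_zero (mul_ne_zero
      (h0 _) (t _ (by norm_num))) (t _ (by norm_num))) (t _ (by norm_num))) (t _ (by norm_num))) (t _ (by norm_num)))
      (t _ (by norm_num))) (t _ (by norm_num))

theorem dvd_nm {f : Fam} {q n C : ℕ} (hC : dn f q * C = nm f q) (hn : n ∣ C) : n ∣ nm f q := hC ▸ hn.mul_left _

/-- `E8`, `3` -/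
theorem w_e8 {i e : ℕ} (hi : i ≠ 0) (h : 3 ^ e ∣ nm .e8 (2 ^ i)) : 3 ^ (min ((e - 6) / 8) 6) ∣ i := by
  have hq : 2 ≤ 2 ^ i := by
    calc 2 = 2 ^ 1 := by norm_num
      _ ≤ 2 ^ i := Nat.pow_le_pow_right (by norm_num) (by omega)
  rw [padicValNat_dvd_iff_le (nm_ne (Or.inl rfl) hq), v3_e8 i hi] at h
  rw [padicValNat_dvd_iff_le hi]
  omega

/-- `E7`, `3` -/
theorem w_e7 {i e : ℕ} (hi : i ≠ 0) (h : 3 ^ e ∣ nm .e7 (2 ^ i)) : 3 ^ (min ((e - 5) / 7) 6) ∣ i := by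
  have hq : 2 ≤ 2 ^ i := by
    calc 2 = 2 ^ 1 := by norm_num
      _ ≤ 2 ^ i := Nat.pow_le_pow_right (by norm_num) (by omega)
  rw [padicValNat_dvd_iff_le (nm_ne (Or.inr rfl) hq), v3_e7 i hi] at h
  rw [padicValNat_dvd_iff_le hi]
  omega

theorem three_le {q : ℕ} (hq : Odd q) (h1 : 1 < q) : 3 ≤ padicValNat 2 (q ^ 2 - 1) := by
  rw [← padicValNat_dvd_iff_le (term_ne q 2 h1 (by norm_num))]
  obtain ⟨m, rfl⟩ := hq
  obtain ⟨r, hr⟩ := Nat.even_mul_succ_self m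
  refine ⟨r, ?_⟩
  have : (2 * m + 1) ^ 2 = 4 * (m * (m + 1)) + 1 := by ring
  rw [this, hr]
  omega

/-- `E8`, `2` -/
theorem v_e8 {q e : ℕ} (hq : Odd q) (h1 : 1 < q) (h : 2 ^ e ∣ nm .e8 q) :
    2 ^ (max ((e + 1) / 8 - 2) 1 + 2) ∣ q ^ 2 - 1 := by
  have h3 := three_le hq h1
  rw [padicValNat_dvd_iff_le (nm_ne (Or.inl rfl) h1), v2_e8 q hq h1] at h
  rw [padicValNat_dvd_iff_le (term_ne q 2 h1 (by norm_num))]
  omega

/-- `E7`, `2` -/
theorem v_e7 {q e : ℕ} (hq : Odd q) (h1 : 1 < q) (h : 2 ^ e ∣ nm .e7 q) :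
    2 ^ (max ((e + 3) / 7 - 2) 1 + 2) ∣ q ^ 2 - 1 := by
  have h3 := three_le hq h1
  rw [padicValNat_dvd_iff_le (nm_ne (Or.inr rfl) h1), v2_e7 q hq h1] at h
  rw [padicValNat_dvd_iff_le (term_ne q 2 h1 (by norm_num))]
  omega

/-- the check, `E8` -/
def ck8 (t L e2 e3 k : ℕ) : Bool :=
  ev .e8 (t ^ k) (bk L t k) (min ((e3 * k - 6) / 8) 6) 600 &&
    od .e8 (t ^ k) (bk L t k) (max ((e2 * k + 1) / 8 - 2) 1 + 1) 300

/-- the check, `E7`, even -/
def ck7e (t L e3 k : ℕ) : Bool := ev .e7 (t ^ k) (bk L t k) (min ((e3 * k - 5) / 7) 6) 600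

/-- the check, `E7`, odd -/
def ck7o (t L e2 k : ℕ) : Bool := od .e7 (t ^ k) (bk L t k) (max ((e2 * k + 3) / 7 - 2) 1 + 1) 2000

theorem core8 {t L e2 e3 k q C : ℕ} (h2 : 2 ^ e2 ∣ t) (h3 : 3 ^ e3 ∣ t) (hck : ck8 t L e2 e3 k = true)
    (hq : IsPrimePow q) (hC : dn .e8 q * C = nm .e8 q) (hd : t ^ k ∣ C) (hB : C ≤ bk L t k) : False := by
  rw [ck8, Bool.and_eq_true] at hck
  have hn := dvd_nm hC hd
  rcases even_or hq with ⟨i, hi, rfl⟩ | ho
  · refine ev_false hck.1 hi (w_e8 hi ?_) hC hd hB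
    rw [pow_mul]
    exact (pow_dvd_pow_of_dvd h3 k).trans hn
  · have h1 : 1 < q := hq.one_lt
    obtain ⟨j, hj⟩ := Cfsg.Agent.H805.EPX.pm ho (v_e8 ho h1 (e := e2 * k) (by rw [pow_mul]; exact (pow_dvd_pow_of_dvd h2 k).trans hn))
    exact od_false hck.2 h1 hj hC hd hB

theorem core7e {t L e3 k q C : ℕ} (h3 : 3 ^ e3 ∣ t) (hck : ck7e t L e3 k = true)
    (hq : IsPrimePow q) (hev : ¬ Odd q) (hC : dn .e7 q * C = nm .e7 q) (hd : t ^ k ∣ C) (hB : C ≤ bk L t k) :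
    False := by
  rw [ck7e] at hck
  have hn := dvd_nm hC hd
  rcases even_or hq with ⟨i, hi, rfl⟩ | ho
  · refine ev_false hck hi (w_e7 hi ?_) hC hd hB
    rw [pow_mul]
    exact (pow_dvd_pow_of_dvd h3 k).trans hn
  · exact hev ho

theorem core7o {t L e2 k q C : ℕ} (h2 : 2 ^ e2 ∣ t) (hck : ck7o t L e2 k = true)
    (hq : IsPrimePow q) (ho : Odd q) (hC : dn .e7 q * C = nm .e7 q) (hd : t ^ k ∣ C) (hB : C ≤ bk L t k) :
    False := by
  rw [ck7o] at hck
  have hn := dvd_nm hC hd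
  have h1 : 1 < q := hq.one_lt
  obtain ⟨j, hj⟩ := Cfsg.Agent.H805.EPX.pm ho (v_e7 ho h1 (e := e2 * k) (by rw [pow_mul]; exact (pow_dvd_pow_of_dvd h2 k).trans hn))
  exact od_false hck h1 hj hC hd hB

end Cfsg.Agent.H626.EK
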